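import Mathlib
import Cfsg.Agent.H104.EB.COne
import Cfsg.Agent.Characters.ClassMul
import Cfsg.Agent.H30.OZ.Bad
import Cfsg.Agent.H266.M13.Syl

/-!
# S4933, pairs with `|P| = p ^ 3`: the fourth moment test (helper702)

`G` finite, `z` a rational element of order `p` in the centre of a nonabelian Sylow subgroup `R` of order `p ^ 3` and
exponent `p`, `C(z)` has one `p`-block, `D = z^G`, `N2`, `N3` the numbers of pairs, triples of elements of `D` with product
`z`.  If the principal block has only characters of degree prime to `p` then `p ^ 3 ∣ 3 D ^ 2 - 3 D N2 + N3`.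
-/

set_option autoImplicit false
set_option linter.unusedSectionVars false

namespace Cfsg.Agent.H702.E4

open Cfsg Cfsg.Agent.Characters Cfsg.Agent.Characters.Core Cfsg.Agent.Characters.ClassMul Subgroup
open scoped ComplexConjugate BigOperators

universe u

/-! ### the congruence modulo `p ^ 2` -/

section congr

variable {G : Type u} [Group G] [Finite G]

theorem sum_zpowers {p : ℕ} [hp : Fact p.Prime] {z : G} (hz : orderOf z = p)
    (hrat : ∀ k : ℕ, ¬ p ∣ k → IsConj z (z ^ k)) {χ : G → ℂ} (hχ : IsCharacter G χ) [Fintype (zpowers z)] :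
    ∑ c : zpowers z, χ c = χ 1 + ((p : ℂ) - 1) * χ z := by
  classical
  have h1 : ∀ c ∈ (Finset.univ : Finset (zpowers z)).erase 1, χ c = χ z := by
    intro c hc
    have hc1 : c ≠ 1 := (Finset.mem_erase.1 hc).1
    obtain ⟨k, hk⟩ := mem_powers_iff_mem_zpowers.2 c.2
    have hk' : z ^ k = (c : G) := hk
    have hpk : ¬ p ∣ k := by
      intro hd
      apply hc1
      apply Subtype.ext
      rw [← hk']
      show z ^ k = 1
      rw [← orderOf_dvd_iff_pow_eq_one, hz]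
      exact hd
    obtain ⟨g, hg⟩ := isConj_iff.1 (hrat k hpk)
    rw [← hk', ← hg]
    exact isCharacter_isClassFunction hχ z g
  rw [← Finset.add_sum_erase _ _ (Finset.mem_univ (1 : zpowers z)), Finset.sum_congr rfl h1, Finset.sum_const,
    Finset.card_erase_of_mem (Finset.mem_univ _), Finset.card_univ, ← Nat.card_eq_fintype_card, Nat.card_zpowers, hz,
    nsmul_eq_mul, Nat.cast_sub hp.out.one_le, Nat.cast_one]
  rfl

theorem sum_eq_card {G : Type u} [Group G] [Fintype G] {χ : G → ℂ} (hχ : IsCharacter G χ) :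
    ∃ n : ℕ, ∑ g, χ g = (Nat.card G : ℂ) * n := by
  obtain ⟨n, hn⟩ := classInner_isNat hχ (isCharacter_one (G := G))
  refine ⟨n, ?_⟩
  rw [classInner_def] at hn
  have h2 : (Nat.card G : ℂ) ≠ 0 := by exact_mod_cast Nat.card_pos.ne'
  have h4 : ∑ g : G, χ g * (starRingEnd ℂ) ((1 : G → ℂ) g) = ∑ h : G, χ h :=
    Finset.sum_congr rfl fun g _ => by simp
  rw [h4] at hn
  rw [← hn]
  field_simp

theorem sq_dvd {p : ℕ} [hp : Fact p.Prime] {y z : G} (hy : orderOf y = p) (hz : orderOf z = p) (hyz : y * z = z * y)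
    (hc : ∀ b ∈ zpowers y, b ≠ 1 → ∀ c ∈ zpowers z, IsConj b (b * c))
    (hrat : ∀ k : ℕ, ¬ p ∣ k → IsConj z (z ^ k)) {χ : G → ℂ} (hχ : IsCharacter G χ) {d X : ℤ} (hd : χ 1 = d)
    (hX : χ z = X) : (p : ℤ) ^ 2 ∣ d - X := by
  classical
  have _ := Fintype.ofFinite (zpowers y)
  have _ := Fintype.ofFinite (zpowers z)
  have hcomm : ∀ (b : zpowers y) (c : zpowers z), Commute ((zpowers y).subtype b) ((zpowers z).subtype c) := by
    rintro ⟨_, i, rfl⟩ ⟨_, j, rfl⟩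
    exact ((show Commute y z from hyz).zpow_left i).zpow_right j
  let φ : zpowers y × zpowers z →* G := (zpowers y).subtype.noncommCoprod (zpowers z).subtype hcomm
  have hφ : ∀ b c, φ (b, c) = (b : G) * (c : G) := fun b c => rfl
  obtain ⟨m, hm⟩ := sum_eq_card (isCharacter_comp φ hχ)
  obtain ⟨n, hn⟩ := sum_eq_card (isCharacter_comp (zpowers y).subtype hχ)
  rw [Nat.card_prod, Nat.card_zpowers, Nat.card_zpowers, hy, hz, Fintype.sum_prod_type] at hm
  rw [Nat.card_zpowers, hy] at hn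
  have h1 : ∀ b : zpowers y, b ≠ 1 → ∑ c : zpowers z, χ (φ (b, c)) = p * χ b := by
    intro b hb
    rw [Finset.sum_congr rfl (g := fun _ => χ b), Finset.sum_const, Finset.card_univ, ← Nat.card_eq_fintype_card,
      Nat.card_zpowers, hz, nsmul_eq_mul]
    intro c _
    obtain ⟨g, hg⟩ := isConj_iff.1 (hc b b.2 (fun h => hb (Subtype.ext h)) c c.2)
    rw [hφ, ← hg]
    exact isCharacter_isClassFunction hχ _ g
  have h2 : ∑ b : zpowers y, ∑ c : zpowers z, χ (φ (b, c)) = χ 1 + ((p : ℂ) - 1) * χ z + p * (∑ b : zpowers y, χ b - χ 1) := by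
    rw [← Finset.add_sum_erase _ _ (Finset.mem_univ (1 : zpowers y)), ← Finset.add_sum_erase (Finset.univ) (fun b : zpowers y => χ b) (Finset.mem_univ (1 : zpowers y)),
      Finset.sum_congr rfl (fun b hb => h1 b (Finset.ne_of_mem_erase hb)), ← Finset.mul_sum]
    have h3 : ∑ c : zpowers z, χ (φ (1, c)) = χ 1 + ((p : ℂ) - 1) * χ z := by
      rw [← sum_zpowers hz hrat hχ]
      refine Finset.sum_congr rfl fun c _ => ?_
      rw [hφ]
      simp
    rw [h3]
    simp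
  have hm' : ∑ b : zpowers y, ∑ c : zpowers z, χ (φ (b, c)) = ((p * p : ℕ) : ℂ) * m := hm
  have hn' : ∑ b : zpowers y, χ b = (p : ℂ) * n := hn
  rw [h2, hn', hd, hX] at hm'
  have h4 : d + ((p : ℤ) - 1) * X + p * (p * n - d) = (p * p) * m := by
    have : ((d + ((p : ℤ) - 1) * X + p * (p * n - d) : ℤ) : ℂ) = ((p * p * m : ℤ) : ℂ) := by
      push_cast
      push_cast at hm'
      exact hm'
    exact_mod_cast this
  have h5 : (p : ℤ) ^ 2 ∣ ((p : ℤ) - 1) * (d - X) := ⟨n - m, by linear_combination -h4⟩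
  have h6 : IsCoprime ((p : ℤ) ^ 2) ((p : ℤ) - 1) := by
    apply IsCoprime.pow_left
    exact ⟨1, -1, by ring⟩
  exact h6.dvd_of_dvd_mul_left h5

end congr

/-! ### integrality -/

section omega

variable {G : Type u} [Group G] [Finite G]

theorem exists_omega {z : G} (χ : IrrCharacter G) {X : ℤ} (hX : (χ : G → ℂ) z = X) :
    ∃ w : ℤ, (w : ℂ) * (χ : G → ℂ) 1 = ((centralizer ({z} : Set G)).index : ℂ) * (χ : G → ℂ) z := by
  have _ := Fintype.ofFinite G
  obtain ⟨n, hn0, hn⟩ := isIrr_apply_one χ.2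
  have h1 : IsIntegral ℤ (((centralizer ({z} : Set G)).index : ℂ) * (χ : G → ℂ) z / (χ : G → ℂ) 1) := by
    obtain ⟨n, ρ, hρ, hχ⟩ := χ.2
    have := CentralCharacter.isIntegral_index_mul_character_div ρ z
    have hfin : (Module.finrank ℂ (Fin n → ℂ) : ℂ) = (χ : G → ℂ) 1 := by
      rw [← hχ, Representation.char_one]
    rw [hfin, hχ] at this
    exact this
  have hn1 : (χ : G → ℂ) 1 ≠ 0 := isIrr_apply_one_ne_zero χ.2
  obtain ⟨k, hk⟩ := H30.OZ.exists_int h1 (fun σ => by rw [hn, hX]; simp)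
  exact ⟨k, by rw [← hk]; field_simp⟩

end omega


/-! ### the sums -/

section sums

variable {G : Type u} [Group G] [Finite G]

theorem card_triples (z : G) [Fintype (IrrCharacter G)] :
    (Nat.card {x : G × G × G // IsConj z x.1 ∧ IsConj z x.2.1 ∧ IsConj z x.2.2 ∧ x.1 * x.2.1 * x.2.2 = z} : ℂ) =
      ((centralizer ({z} : Set G)).index : ℂ) ^ 3 / (Nat.card G : ℂ) *
      ∑ χ : IrrCharacter G, (χ : G → ℂ) z ^ 3 * conj ((χ : G → ℂ) z) / (χ : G → ℂ) 1 ^ 2 := by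
  classical
  have _ := Fintype.ofFinite G
  have e1 : (Nat.card {x : G × G × G // IsConj z x.1 ∧ IsConj z x.2.1 ∧ IsConj z x.2.2 ∧ x.1 * x.2.1 * x.2.2 = z} : ℂ) =
      ∑ u with IsConj z u, (Nat.card {q : G × G // IsConj z q.1 ∧ IsConj z q.2 ∧ q.1 * q.2 = u⁻¹ * z} : ℂ) := by
    rw [← Nat.cast_sum, Nat.cast_inj]
    have e2 : Nat.card {x : G × G × G // IsConj z x.1 ∧ IsConj z x.2.1 ∧ IsConj z x.2.2 ∧ x.1 * x.2.1 * x.2.2 = z} =
        Nat.card (Σ u : {u : G // u ∈ Finset.univ.filter (IsConj z)}, {q : G × G // IsConj z q.1 ∧ IsConj z q.2 ∧ q.1 * q.2 = u.1⁻¹ * z}) := by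
      refine Nat.card_congr ⟨fun x => ⟨⟨x.1.1, by simpa using x.2.1⟩, ⟨x.1.2, x.2.2.1, x.2.2.2.1, ?_⟩⟩,
        fun y => ⟨(y.1.1, y.2.1), by simpa using y.1.2, y.2.2.1, y.2.2.2.1, ?_⟩, fun x => rfl, fun y => rfl⟩
      · rw [eq_inv_mul_iff_mul_eq, ← mul_assoc]
        exact x.2.2.2.2
      · have := y.2.2.2.2
        rw [eq_inv_mul_iff_mul_eq, ← mul_assoc] at this
        exact this
    rw [e2, Nat.card_sigma, ← Finset.sum_coe_sort (Finset.univ.filter (IsConj z))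
      (fun u => Nat.card {q : G × G // IsConj z q.1 ∧ IsConj z q.2 ∧ q.1 * q.2 = u⁻¹ * z})]
  rw [e1, Finset.sum_congr rfl (fun u _ => card_class_mul z z (u⁻¹ * z)), ← Finset.mul_sum, Finset.sum_comm]
  have e3 : ∀ χ : IrrCharacter G, ∑ u with IsConj z u, (χ : G → ℂ) z * (χ : G → ℂ) z * conj ((χ : G → ℂ) (u⁻¹ * z)) / (χ : G → ℂ) 1 =
      ((centralizer ({z} : Set G)).index : ℂ) * ((χ : G → ℂ) z ^ 3 * conj ((χ : G → ℂ) z) / (χ : G → ℂ) 1 ^ 2) := by
    intro χ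
    have h1 : (χ : G → ℂ) 1 ≠ 0 := isIrr_apply_one_ne_zero χ.2
    have e4 : ∀ u ∈ Finset.univ.filter (IsConj z), (χ : G → ℂ) z * (χ : G → ℂ) z * conj ((χ : G → ℂ) (u⁻¹ * z)) / (χ : G → ℂ) 1 =
        (χ : G → ℂ) z * (χ : G → ℂ) z / (χ : G → ℂ) 1 * (χ : G → ℂ) (u * z⁻¹) := by
      intro u _
      rw [← isCharacter_apply_inv (isIrr_isCharacter χ.2) (u⁻¹ * z)]
      have h2 : (χ : G → ℂ) (u⁻¹ * z)⁻¹ = (χ : G → ℂ) (u * z⁻¹) := by
        rw [← isIrr_isClassFunction χ.2 (u⁻¹ * z)⁻¹ z]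
        group
      rw [h2]
      ring
    rw [Finset.sum_congr rfl e4, ← Finset.mul_sum, sum_class_char_mul χ.2, isCharacter_apply_inv (isIrr_isCharacter χ.2) z]
    field_simp
  rw [Finset.sum_congr rfl fun χ _ => e3 χ, ← Finset.mul_sum]
  ring

theorem moment {z : G} (hz1 : z ≠ 1) [Fintype (IrrCharacter G)] {X w d : IrrCharacter G → ℤ} {D N2 N3 : ℕ}
    (hX : ∀ χ : IrrCharacter G, (χ : G → ℂ) z = X χ) (hd : ∀ χ : IrrCharacter G, (χ : G → ℂ) 1 = d χ)
    (hD : (centralizer ({z} : Set G)).index = D)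
    (hw : ∀ χ : IrrCharacter G, w χ * d χ = D * X χ)
    (h2 : Nat.card {x : G × G // IsConj z x.1 ∧ IsConj z x.2 ∧ x.1 * x.2 = z} = N2)
    (h3 : Nat.card {x : G × G × G // IsConj z x.1 ∧ IsConj z x.2.1 ∧ IsConj z x.2.2 ∧ x.1 * x.2.1 * x.2.2 = z} = N3) :
    ∑ χ : IrrCharacter G, d χ ^ 2 * w χ * (D - w χ) ^ 3 = - (D * Nat.card G * (3 * D ^ 2 - 3 * D * N2 + N3)) := by
  classical
  have hG : (Nat.card G : ℂ) ≠ 0 := by exact_mod_cast Nat.card_pos.ne'
  have hD0 : (D : ℂ) ≠ 0 := by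
    rw [← hD]
    exact_mod_cast (centralizer ({z} : Set G)).index_ne_zero_of_finite
  have hd0 : ∀ χ : IrrCharacter G, (d χ : ℂ) ≠ 0 := fun χ => by rw [← hd]; exact isIrr_apply_one_ne_zero χ.2
  have hX' : ∀ χ : IrrCharacter G, (X χ : ℂ) = w χ * d χ / D := fun χ => by
    have h := hw χ
    have h' : (w χ : ℂ) * d χ = D * X χ := by exact_mod_cast h
    rw [h']
    field_simp
  have s1 : ∑ χ : IrrCharacter G, (d χ : ℂ) ^ 2 * w χ = 0 := by
    have h := Counting.sum_irr_one_mul z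
    rw [if_neg hz1] at h
    have h' : ∑ χ : IrrCharacter G, (χ : G → ℂ) 1 * (χ : G → ℂ) z = ∑ χ : IrrCharacter G, (D : ℂ)⁻¹ * ((d χ : ℂ) ^ 2 * w χ) := by
      refine Finset.sum_congr rfl fun χ _ => ?_
      rw [hd, hX, hX']
      field_simp
    rw [h', ← Finset.mul_sum] at h
    exact (mul_eq_zero.1 h).resolve_left (inv_ne_zero hD0)
  have s2 : ∑ χ : IrrCharacter G, (d χ : ℂ) ^ 2 * w χ ^ 2 = D * Nat.card G := by
    have h := card_class_mul z 1 z
    have h0 : Nat.card {x : G × G // IsConj z x.1 ∧ IsConj (1 : G) x.2 ∧ x.1 * x.2 = z} = 1 := by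
      rw [Nat.card_eq_one_iff_unique]
      refine ⟨⟨fun x y => ?_⟩, ⟨⟨(z, 1), IsConj.refl z, IsConj.refl 1, mul_one z⟩⟩⟩
      obtain ⟨⟨x1, x2⟩, -, hx2, hx⟩ := x
      obtain ⟨⟨y1, y2⟩, -, hy2, hy⟩ := y
      simp only at hx2 hy2 hx hy
      rw [isConj_one_right] at hx2 hy2
      subst hx2 hy2
      rw [mul_one] at hx hy
      subst hx hy
      rfl
    have h1 : (centralizer ({(1 : G)} : Set G)).index = 1 := by
      rw [Subgroup.index_eq_one]
      exact eq_top_iff.2 fun g _ => by rw [mem_centralizer_singleton_iff]; simp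
    rw [h0, hD, h1] at h
    have h' : ∑ χ : IrrCharacter G, (χ : G → ℂ) z * (χ : G → ℂ) 1 * conj ((χ : G → ℂ) z) / (χ : G → ℂ) 1 =
        ∑ χ : IrrCharacter G, ((D : ℂ) ^ 2)⁻¹ * ((d χ : ℂ) ^ 2 * w χ ^ 2) := by
      refine Finset.sum_congr rfl fun χ _ => ?_
      have := hd0 χ
      rw [hd, hX, map_intCast, hX']
      field_simp
    rw [h', ← Finset.mul_sum] at h
    push_cast at h
    field_simp at h
    linear_combination -h
  have s3 : ∑ χ : IrrCharacter G, (d χ : ℂ) ^ 2 * w χ ^ 3 = D * Nat.card G * N2 := by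
    have h := card_class_mul z z z
    rw [h2, hD] at h
    have h' : ∑ χ : IrrCharacter G, (χ : G → ℂ) z * (χ : G → ℂ) z * conj ((χ : G → ℂ) z) / (χ : G → ℂ) 1 =
        ∑ χ : IrrCharacter G, ((D : ℂ) ^ 3)⁻¹ * ((d χ : ℂ) ^ 2 * w χ ^ 3) := by
      refine Finset.sum_congr rfl fun χ _ => ?_
      have := hd0 χ
      rw [hd, hX, map_intCast, hX']
      field_simp
    rw [h', ← Finset.mul_sum] at h
    rw [h]
    field_simp
  have s4 : ∑ χ : IrrCharacter G, (d χ : ℂ) ^ 2 * w χ ^ 4 = D * Nat.card G * N3 := by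
    have h := card_triples z
    rw [h3, hD] at h
    have h' : ∑ χ : IrrCharacter G, (χ : G → ℂ) z ^ 3 * conj ((χ : G → ℂ) z) / (χ : G → ℂ) 1 ^ 2 =
        ∑ χ : IrrCharacter G, ((D : ℂ) ^ 4)⁻¹ * ((d χ : ℂ) ^ 2 * w χ ^ 4) := by
      refine Finset.sum_congr rfl fun χ _ => ?_
      have := hd0 χ
      rw [hd, hX, map_intCast, hX']
      field_simp
    rw [h', ← Finset.mul_sum] at h
    rw [h]
    field_simp
  have key : ((∑ χ : IrrCharacter G, d χ ^ 2 * w χ * (D - w χ) ^ 3 : ℤ) : ℂ) =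
      ((- (D * Nat.card G * (3 * D ^ 2 - 3 * D * N2 + N3)) : ℤ) : ℂ) := by
    push_cast
    have e : ∀ χ : IrrCharacter G, (d χ : ℂ) ^ 2 * w χ * (D - w χ) ^ 3 = (D : ℂ) ^ 3 * ((d χ : ℂ) ^ 2 * w χ)
        - 3 * (D : ℂ) ^ 2 * ((d χ : ℂ) ^ 2 * w χ ^ 2) + 3 * D * ((d χ : ℂ) ^ 2 * w χ ^ 3) - (d χ : ℂ) ^ 2 * w χ ^ 4 :=
      fun χ => by ring
    rw [Finset.sum_congr rfl fun χ _ => e χ, Finset.sum_sub_distrib, Finset.sum_add_distrib, Finset.sum_sub_distrib,
      ← Finset.mul_sum, ← Finset.mul_sum, ← Finset.mul_sum, s1, s2, s3, s4]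
    ring
  exact_mod_cast key

end sums

/-! ### the test -/

section test

variable {G : Type u} [Group G] [Finite G]

/-- the local data -/
structure Loc (p : ℕ) (z : G) (R : Subgroup G) : Prop where
  oz : orderOf z = p
  cR : Nat.card R = p ^ 3
  Rz : R ≤ centralizer ({z} : Set G)
  zR : z ∈ R
  na : ∃ r ∈ R, ∃ s ∈ R, r * s ≠ s * r
  ex : ∀ r ∈ R, r ^ p = 1
  h4 : ¬ p ^ 4 ∣ Nat.card G
  rat : ∀ k : ℕ, ¬ p ∣ k → IsConj z (z ^ k)

variable {p : ℕ} [hp : Fact p.Prime] {z : G} {R : Subgroup G}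

omit [Finite G] in
theorem Loc.conj_mul (H : Loc p z R) [Finite R] {v : G} (hv : v ∈ R) (hvz : v ∉ zpowers z) {c : G} (hc : c ∈ zpowers z) :
    ∃ s ∈ R, s * v * s⁻¹ = v * c := by
  have h1 : (⟨z, H.zR⟩ : R) ∈ center R := mem_center_iff.2 fun g => Subtype.ext (mem_centralizer_singleton_iff.1 (H.Rz g.2))
  have h2 : ¬ ∀ r s : R, r * s = s * r := by
    obtain ⟨r, hr, s, hs, hne⟩ := H.na
    exact fun h => hne (congrArg Subtype.val (h ⟨r, hr⟩ ⟨s, hs⟩))
  have h3 : ∀ u (hu : u ∈ R), (⟨u, hu⟩ : R) ∈ zpowers (⟨z, H.zR⟩ : R) ↔ u ∈ zpowers z := by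
    intro u hu
    constructor
    · rintro ⟨k, hk⟩
      exact ⟨k, by simpa using congrArg Subtype.val hk⟩
    · rintro ⟨k, hk⟩
      exact ⟨k, Subtype.ext (by simpa using hk)⟩
  have hcR : c ∈ R := (zpowers_le.2 H.zR) hc
  obtain ⟨s, hs⟩ := H266.M13.exists_conj_mul H.cR (by rw [Subgroup.orderOf_mk, H.oz]) h1 h2
    (v := ⟨v, hv⟩) (by rw [h3]; exact hvz) (z := ⟨c, hcR⟩) ((h3 c hcR).2 hc)
  exact ⟨s, s.2, congrArg Subtype.val hs⟩

theorem Loc.exists_y (H : Loc p z R) : ∃ y ∈ R, y ∉ zpowers z := by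
  by_contra hcon
  push Not at hcon
  obtain ⟨r, hr, s, hs, hne⟩ := H.na
  apply hne
  obtain ⟨i, rfl⟩ := mem_zpowers_iff.1 (hcon r hr)
  exact ((show Commute s z from mem_centralizer_singleton_iff.1 (H.Rz hs)).zpow_right i).symm.eq

theorem Loc.sq_dvd (H : Loc p z R) {χ : G → ℂ} (hχ : IsCharacter G χ) {d X : ℤ} (hd : χ 1 = d)
    (hX : χ z = X) : (p : ℤ) ^ 2 ∣ d - X := by
  obtain ⟨y, hyR, hyz⟩ := H.exists_y
  have hy1 : y ≠ 1 := fun h => hyz (h ▸ one_mem _)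
  have hy : orderOf y = p := orderOf_eq_prime (H.ex y hyR) hy1
  refine E4.sq_dvd hy H.oz (mem_centralizer_singleton_iff.1 (H.Rz hyR)) ?_ H.rat hχ hd hX
  intro b hb hb1 c hc
  have hbR : b ∈ R := (zpowers_le.2 hyR) hb
  have hbz : b ∉ zpowers z := by
    intro h
    apply hyz
    have h2 : zpowers b = zpowers y := by
      refine eq_of_le_of_card_ge (zpowers_le.2 hb) ?_
      rw [Nat.card_zpowers, Nat.card_zpowers, hy, orderOf_eq_prime (H.ex b hbR) hb1]
    have h3 : y ∈ zpowers b := by rw [h2]; exact mem_zpowers y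
    exact (zpowers_le.2 h) h3
  obtain ⟨s, -, hs⟩ := H.conj_mul hbR hbz hc
  exact isConj_iff.2 ⟨s, hs⟩

theorem Loc.fact (H : Loc p z R) : (Nat.card G).factorization p = 3 := by
  have h1 : p ^ 3 ∣ Nat.card G := by rw [← H.cR]; exact card_subgroup_dvd_card R
  have h3 := (hp.out.pow_dvd_iff_le_factorization (Nat.card_pos (α := G)).ne').1 h1
  have h5 : ¬ 4 ≤ (Nat.card G).factorization p := fun h =>
    H.h4 ((hp.out.pow_dvd_iff_le_factorization (Nat.card_pos (α := G)).ne').2 h)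
  omega

theorem Loc.index (H : Loc p z R) : ¬ p ∣ (centralizer ({z} : Set G)).index := by
  intro h
  apply H.h4
  rw [← (centralizer ({z} : Set G)).card_mul_index, pow_succ]
  refine mul_dvd_mul ?_ h
  rw [← H.cR]
  exact card_dvd_of_le H.Rz

/-- **The fourth moment test.** -/
theorem test {M : Ideal AlgInt} (hM : IsPModular p M) (H : Loc p z R)
    (hC : H104.EB.COne.OneBlock M (centralizer ({z} : Set G))) {D N2 N3 : ℕ}
    (hD : (centralizer ({z} : Set G)).index = D)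
    (h2 : Nat.card {x : G × G // IsConj z x.1 ∧ IsConj z x.2 ∧ x.1 * x.2 = z} = N2)
    (h3 : Nat.card {x : G × G × G // IsConj z x.1 ∧ IsConj z x.2.1 ∧ IsConj z x.2.2 ∧ x.1 * x.2.1 * x.2.2 = z} = N3)
    (ht : ¬ ((p : ℤ) ^ 3 ∣ 3 * D ^ 2 - 3 * D * N2 + N3)) :
    ∃ χ : IrrCharacter G, χ ∈ principalBlock M G ∧ p ∣ charDegree (χ : G → ℂ) := by
  classical
  by_contra hcon
  push Not at hcon
  apply ht
  have _ := Fintype.ofFinite G
  have : Finite (IrrCharacter G) := finite_irr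
  have _ := Fintype.ofFinite (IrrCharacter G)
  have hz1 : z ≠ 1 := by
    intro h
    have := H.oz
    rw [h, orderOf_one] at this
    exact hp.out.one_lt.ne this
  have hpG : p ∣ Nat.card G := by
    rw [← H.oz]
    exact orderOf_dvd_natCard z
  have hval : ∀ χ : IrrCharacter G, ∃ k : ℤ, (χ : G → ℂ) z = k := by
    refine fun χ => H30.OZ.exists_int_val (fun k hk => H.rat k ?_) χ
    intro hd
    exact hp.out.one_lt.ne' (Nat.eq_one_of_dvd_coprimes hk hd hpG)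
  choose X hX using hval
  choose w hw using fun χ : IrrCharacter G => exists_omega χ (hX χ)
  have hdd : ∀ χ : IrrCharacter G, (χ : G → ℂ) 1 = ((charDegree (χ : G → ℂ) : ℤ) : ℂ) := by
    intro χ
    obtain ⟨n, hn0, hn⟩ := isIrr_apply_one χ.2
    have : charDegree (χ : G → ℂ) = n := by
      unfold charDegree
      rw [hn]
      simp
    rw [this, hn]
    simp
  have hw' : ∀ χ : IrrCharacter G, w χ * (charDegree (χ : G → ℂ) : ℤ) = D * X χ := by
    intro χ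
    have h := hw χ
    rw [hdd, hX, hD] at h
    exact_mod_cast h
  have hm := moment hz1 hX hdd hD hw' h2 h3
  have hdvd : (p : ℤ) ^ 6 ∣ ∑ χ : IrrCharacter G, (charDegree (χ : G → ℂ) : ℤ) ^ 2 * w χ * (D - w χ) ^ 3 := by
    refine Finset.dvd_sum fun χ _ => ?_
    by_cases hχ : χ ∈ principalBlock M G
    · have h1 := H.sq_dvd (isIrr_isCharacter χ.2) (hdd χ) (hX χ)
      have h4 : (p : ℤ) ^ 2 ∣ (charDegree (χ : G → ℂ) : ℤ) * (D - w χ) := by
        have : (charDegree (χ : G → ℂ) : ℤ) * (D - w χ) = D * ((charDegree (χ : G → ℂ) : ℤ) - X χ) := by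
          linear_combination -(hw' χ)
        rw [this]
        exact Dvd.dvd.mul_left h1 _
      have h5 : IsCoprime ((p : ℤ) ^ 2) (charDegree (χ : G → ℂ) : ℤ) := by
        apply IsCoprime.pow_left
        rw [Nat.isCoprime_iff_coprime]
        exact (Nat.Prime.coprime_iff_not_dvd hp.out).2 (hcon χ hχ)
      have h6 := h5.dvd_of_dvd_mul_left h4
      have h7 : (p : ℤ) ^ 6 ∣ (D - w χ) ^ 3 := by
        have := pow_dvd_pow_of_dvd h6 3
        rwa [← pow_mul] at this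
      exact Dvd.dvd.mul_left h7 _
    · have h1 := H104.EB.COne.vanish hM χ hχ z ⟨1, by rw [H.oz, pow_one]⟩ hC 1
        (by unfold IsPRegular; rw [orderOf_one]; exact hp.out.one_lt.ne' ∘ Nat.dvd_one.1) (Commute.one_right z)
      rw [mul_one, hX] at h1
      have h4 : X χ = 0 := by exact_mod_cast h1
      have h5 : w χ = 0 := by
        have h6 := hw' χ
        rw [h4, mul_zero] at h6
        refine (mul_eq_zero.1 h6).resolve_right ?_
        have h7 := isIrr_apply_one_ne_zero χ.2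
        rw [hdd] at h7
        exact_mod_cast h7
      rw [h5]
      simp
  rw [hm, dvd_neg] at hdvd
  obtain ⟨g, hg⟩ : ∃ g : ℕ, Nat.card G = p ^ 3 * g ∧ ¬ p ∣ g := by
    obtain ⟨g, hg⟩ : p ^ 3 ∣ Nat.card G := by rw [← H.cR]; exact card_subgroup_dvd_card R
    refine ⟨g, hg, fun h => H.h4 ?_⟩
    rw [hg, pow_succ]
    exact mul_dvd_mul_left _ h
  obtain ⟨hg, hpg⟩ := hg
  have hpD : ¬ p ∣ D := hD ▸ H.index
  have h4 : (p : ℤ) ^ 3 * (p : ℤ) ^ 3 ∣ (p : ℤ) ^ 3 * ((D * g : ℕ) * (3 * D ^ 2 - 3 * D * N2 + N3)) := by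
    have : (D : ℤ) * (Nat.card G : ℕ) * (3 * D ^ 2 - 3 * D * N2 + N3) = (p : ℤ) ^ 3 * ((D * g : ℕ) * (3 * D ^ 2 - 3 * D * N2 + N3)) := by
      rw [hg]
      push_cast
      ring
    rw [← this, ← pow_add]
    exact hdvd
  have hp0 : ((p : ℤ) ^ 3) ≠ 0 := pow_ne_zero _ (by exact_mod_cast hp.out.ne_zero)
  have h5 := Int.dvd_of_mul_dvd_mul_left hp0 h4
  have h6 : IsCoprime ((p : ℤ) ^ 3) ((D * g : ℕ) : ℤ) := by
    apply IsCoprime.pow_left
    rw [Nat.isCoprime_iff_coprime]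
    exact (Nat.Prime.coprime_iff_not_dvd hp.out).2 (hp.out.prime.not_dvd_mul hpD hpg)
  exact h6.dvd_of_dvd_mul_left h5

end test

end Cfsg.Agent.H702.E4
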